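import Cfsg.Agent.LieRecognition.FT61.ThmA
import Cfsg.Prelude.Def_Classical

/-!
# Unipotent elements of small linear and unitary groups of characteristic five (helper298)

`exists_R_psl`, `exists_R_psu`: for `n ≤ 5` the groups `PSL_n(F)`, `PSU_n(F)`, `F` of characteristic `5`, have subgroups of
exponent `5` and order `5 ^ j` whenever `5 ^ j` divides the order.
-/

set_option autoImplicit false

namespace Cfsg.Agent.H298.EOFiveUni

open Cfsg Subgroup

theorem matrix_pow {p : ℕ} [hp : Fact p.Prime] {F : Type*} [Field F] [CharP F p] {n : ℕ} (hn : n ≤ p)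
    (x : Matrix (Fin n) (Fin n) F) {k : ℕ} (hx : x ^ p ^ k = 1) : x ^ p = 1 := by
  have hc : CharP (Matrix (Fin n) (Fin n) F) p ∨ n = 0 := by
    rcases Nat.eq_zero_or_pos n with h | h
    · exact Or.inr h
    · left
      have : NeZero n := ⟨h.ne'⟩
      infer_instance
  rcases hc with hc | rfl
  · have h1 : (x - 1) ^ p ^ k = 0 := by
      rw [sub_pow_char_pow_of_commute _ _ (Commute.one_right x), hx, one_pow, sub_self]
    have h2 := LieRecognition.FT61.ThmA.pow_eq_zero_of_isNilpotent hn (x - 1) ⟨_, h1⟩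
    rw [sub_pow_char_of_commute _ (Commute.one_right x), one_pow, sub_eq_zero] at h2
    exact h2
  · exact Subsingleton.elim _ _

theorem exists_R {p : ℕ} [hp : Fact p.Prime] {G T : Type*} [Group G] [Finite G] [Group T] (π : G →* T)
    (hπ : Function.Surjective π) (hG : ∀ (x : G) (k : ℕ), x ^ p ^ k = 1 → x ^ p = 1) {j : ℕ}
    (hj : p ^ j ∣ Nat.card T) : ∃ R : Subgroup T, Nat.card R = p ^ j ∧ ∀ x ∈ R, x ^ p = 1 := by
  have : Finite T := Finite.of_surjective π hπ
  obtain ⟨R, hR⟩ := Sylow.exists_subgroup_card_pow_prime p hj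
  refine ⟨R, hR, fun x hx => ?_⟩
  obtain ⟨Q, hQ⟩ := (IsPGroup.of_card hR).exists_le_sylow
  obtain ⟨S, rfl⟩ := Sylow.mapSurjective_surjective hπ p Q
  obtain ⟨s, hs, rfl⟩ := hQ hx
  obtain ⟨k, hk⟩ := S.2 ⟨s, hs⟩
  have h1 : s ^ p ^ k = 1 := congrArg Subtype.val hk
  rw [← map_pow, hG s k h1, map_one]

variable {F : Type*} [Field F] [Fintype F]

theorem exists_R_psl {p : ℕ} [hp : Fact p.Prime] [CharP F p] {n : ℕ} (hn : n ≤ p) {j : ℕ}
    (hj : p ^ j ∣ Nat.card (Matrix.ProjectiveSpecialLinearGroup (Fin n) F)) :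
    ∃ R : Subgroup (Matrix.ProjectiveSpecialLinearGroup (Fin n) F), Nat.card R = p ^ j ∧ ∀ x ∈ R, x ^ p = 1 := by
  refine exists_R (QuotientGroup.mk' _) (QuotientGroup.mk'_surjective _) (fun x k hx => ?_) hj
  apply Subtype.ext
  have h1 : (x : Matrix (Fin n) (Fin n) F) ^ p ^ k = 1 := by
    rw [← Matrix.SpecialLinearGroup.coe_pow, hx, Matrix.SpecialLinearGroup.coe_one]
  rw [Matrix.SpecialLinearGroup.coe_pow, matrix_pow hn _ h1, Matrix.SpecialLinearGroup.coe_one]

theorem exists_R_psu {p : ℕ} [hp : Fact p.Prime] [CharP F p] {n q : ℕ} (hn : n ≤ p) {j : ℕ}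
    (hj : p ^ j ∣ Nat.card (PSU n F q)) :
    ∃ R : Subgroup (PSU n F q), Nat.card R = p ^ j ∧ ∀ x ∈ R, x ^ p = 1 := by
  refine exists_R (QuotientGroup.mk' _) (QuotientGroup.mk'_surjective _) (fun x k hx => ?_) hj
  apply Subtype.ext
  apply Subtype.ext
  have h0 : ((x : Matrix.SpecialLinearGroup (Fin n) F)) ^ p ^ k = 1 := congrArg Subtype.val hx
  have h1 : ((x : Matrix.SpecialLinearGroup (Fin n) F) : Matrix (Fin n) (Fin n) F) ^ p ^ k = 1 := by
    rw [← Matrix.SpecialLinearGroup.coe_pow, h0, Matrix.SpecialLinearGroup.coe_one]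
  have h2 := matrix_pow hn _ h1
  rw [← Matrix.SpecialLinearGroup.coe_pow] at h2
  exact h2

end Cfsg.Agent.H298.EOFiveUni
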