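import Cfsg.Agent.StdLThreeFour.Facts1

/-!
# The normalizers of the two elementary abelian subgroups of order 16 of a Sylow 2-subgroup of `PSL(3,4)`

`P j ≅ SL(2,4)` complements `A j` in its normalizer.
-/

set_option autoImplicit false

namespace Cfsg.Agent.H298.LFour

open Matrix
open Cfsg.Agent.SporadicA.FieldFour
open Cfsg.Agent.ONType.Psl
open Cfsg.Agent.ONType.PslCard
open Cfsg.Agent.StdLThreeFour.Base
open Cfsg.Agent.StdLThreeFour.Facts1

/-- `SL(2,4)` -/
abbrev SLTwo : Type := SpecialLinearGroup (Fin 2) F4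

/-- an element of `SL(2,4)` -/
def mk2 (a b c d : F4) (h : a * d - b * c = 1) : SLTwo :=
  ⟨Matrix.of ![![a, b], ![c, d]], by rw [Matrix.det_fin_two]; exact h⟩

/-- block matrix -/
def mB (j : Bool) (B : Matrix (Fin 2) (Fin 2) F4) : Matrix (Fin 3) (Fin 3) F4 :=
  if j then !![B 0 0, B 0 1, 0; B 1 0, B 1 1, 0; 0, 0, 1]
  else !![1, 0, 0; 0, B 0 0, B 0 1; 0, B 1 0, B 1 1]

theorem mB_mul (j : Bool) (B C : Matrix (Fin 2) (Fin 2) F4) : mB j (B * C) = mB j B * mB j C := by
  cases j <;> ext a b <;> fin_cases a <;> fin_cases b <;>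
    simp [mB, Matrix.mul_apply, Fin.sum_univ_succ]

theorem mB_one (j : Bool) : mB j 1 = 1 := by
  cases j <;> ext a b <;> fin_cases a <;> fin_cases b <;> simp [mB]

theorem mB_det (j : Bool) (B : Matrix (Fin 2) (Fin 2) F4) : (mB j B).det = B.det := by
  cases j <;> rw [Matrix.det_fin_three, Matrix.det_fin_two] <;> simp [mB]

/-- the embedding of `SL(2,4)` in `SL(3,4)` -/
def blk (j : Bool) : SLTwo →* SL3 where
  toFun B := ⟨mB j B.1, by rw [mB_det]; exact B.2⟩
  map_one' := Subtype.ext (mB_one j)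
  map_mul' B C := Subtype.ext (mB_mul j B.1 C.1)

/-- the embedding of `SL(2,4)` in `PSL(3,4)` -/
def pj (j : Bool) : SLTwo →* L0 := (QuotientGroup.mk' (Subgroup.center SL3)).comp (blk j)

theorem pj_apply (j : Bool) (B : SLTwo) : pj j B = (QuotientGroup.mk (blk j B) : L0) := rfl

/-- an element of `A j` -/
def aj (j : Bool) (u c : F4) : L0 := if j then e 0 u c else e u 0 c

theorem mem_A' {j : Bool} {g : L0} : g ∈ A j ↔ ∃ u c, g = aj j u c := by
  cases j <;> rfl

/-- matrix of `aj` -/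
def mA (j : Bool) (u c : F4) : Matrix (Fin 3) (Fin 3) F4 := if j then um 0 u c else um u 0 c

theorem um_zero (a b c : F4) (h : a * b = 0) : um a b (a * b + c) = um a b c := by rw [h, zero_add]

/-- lift of `aj` to `SL3` -/
def Aj (j : Bool) (u c : F4) : SL3 := if j then T 0 1 0 * T 1 2 u * T 0 2 c else T 0 1 u * T 1 2 0 * T 0 2 c

theorem Aj_val (j : Bool) (u c : F4) : (Aj j u c : Matrix (Fin 3) (Fin 3) F4) = mA j u c := by
  cases j
  · show tm 0 1 u * tm 1 2 0 * tm 0 2 c = um u 0 c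
    rw [tm_prod, um_zero _ _ _ (by rw [mul_zero])]
  · show tm 0 1 0 * tm 1 2 u * tm 0 2 c = um 0 u c
    rw [tm_prod, um_zero _ _ _ (by rw [zero_mul])]

theorem aj_eq (j : Bool) (u c : F4) : aj j u c = (QuotientGroup.mk (Aj j u c) : L0) := by
  cases j <;> rfl

/-- the new coordinates of the conjugate of `aj` -/
def cu (j : Bool) (B : Matrix (Fin 2) (Fin 2) F4) (u c : F4) : F4 :=
  if j then B 1 0 * c + B 1 1 * u else u * B 1 1 + c * B 1 0

def cc (j : Bool) (B : Matrix (Fin 2) (Fin 2) F4) (u c : F4) : F4 :=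
  if j then B 0 0 * c + B 0 1 * u else u * B 0 1 + c * B 0 0

theorem mat_conj (j : Bool) (B : Matrix (Fin 2) (Fin 2) F4) (hB : B.det = 1) (u c : F4) :
    mB j B * mA j u c = mA j (cu j B u c) (cc j B u c) * mB j B := by
  rw [Matrix.det_fin_two] at hB
  have h2 : ∀ x : F4, x + x = 0 := by decide
  have h3 : ∀ x : F4, -x = x := by decide
  have key : ∀ a b c' d u c : F4, a * d - b * c' = 1 →
      (u * d + c * c') * a + (u * b + c * a) * c' = u ∧
      (u * d + c * c') * b + (u * b + c * a) * d = c := by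
    intro a b c' d u c h
    constructor
    · have : (u * d + c * c') * a + (u * b + c * a) * c' =
        u * (a * d - b * c') + (u * (b * c') + u * (b * c')) + (c * c' * a + c * c' * a) := by ring
      rw [this, h, h2, h2]; ring
    · have : (u * d + c * c') * b + (u * b + c * a) * d =
        c * (a * d - b * c') + (c * (b * c') + c * (b * c')) + (u * d * b + u * d * b) := by ring
      rw [this, h, h2, h2]; ring
  obtain ⟨k1, k2⟩ := key _ _ _ _ u c hB
  cases j
  · ext a b
    fin_cases a <;> fin_cases b <;>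
      simp [mB, mA, um, cu, cc, Matrix.mul_apply, Fin.sum_univ_succ]
    · exact k1.symm
    · exact k2.symm
  · ext a b
    fin_cases a <;> fin_cases b <;>
      simp [mB, mA, um, cu, cc, Matrix.mul_apply, Fin.sum_univ_succ]

theorem conj_aj (j : Bool) (B : SLTwo) (u c : F4) :
    pj j B * aj j u c * (pj j B)⁻¹ = aj j (cu j B.1 u c) (cc j B.1 u c) := by
  rw [mul_inv_eq_iff_eq_mul, aj_eq, aj_eq, pj_apply]
  have h : blk j B * Aj j u c = Aj j (cu j B.1 u c) (cc j B.1 u c) * blk j B := by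
    apply Subtype.ext
    show mB j B.1 * (Aj j u c : Matrix (Fin 3) (Fin 3) F4) =
      (Aj j (cu j B.1 u c) (cc j B.1 u c) : Matrix (Fin 3) (Fin 3) F4) * mB j B.1
    rw [Aj_val, Aj_val]
    exact mat_conj j B.1 B.2 u c
  exact congrArg (QuotientGroup.mk : SL3 → PSL3) h

/-- the subgroup `P j ≅ SL(2,4)` -/
def P (j : Bool) : Subgroup L0 := (pj j).range

theorem trans_aux (j : Bool) : ∀ u c : F4, ¬ (u = 0 ∧ c = 0) → ∃ a b c' d : F4,
    a * d - b * c' = 1 ∧ (if j then c' * c + d * u else u * d + c * c') = 0 ∧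
      (if j then a * c + b * u else u * b + c * a) = 1 := by
  cases j <;> decide +kernel

theorem exists_conj (j : Bool) {u c : F4} (h : ¬ (u = 0 ∧ c = 0)) :
    ∃ B : SLTwo, pj j B * aj j u c * (pj j B)⁻¹ = aj j 0 1 := by
  obtain ⟨a, b, c', d, h1, h2, h3⟩ := trans_aux j u c h
  refine ⟨mk2 a b c' d h1, ?_⟩
  rw [conj_aj]
  have e1 : cu j (mk2 a b c' d h1).1 u c = 0 := by
    refine Eq.trans ?_ h2
    cases j
    · rfl
    · rfl
  have e2 : cc j (mk2 a b c' d h1).1 u c = 1 := by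
    refine Eq.trans ?_ h3
    cases j
    · rfl
    · rfl
  rw [e1, e2]

theorem aj_zero_one (j : Bool) : aj j 0 1 = t 0 2 1 := by
  cases j <;> exact e_02 1

theorem aj_zero (j : Bool) : aj j 0 0 = 1 := by
  cases j <;> exact e_zero

theorem pj_eq_aj {j : Bool} {B : SLTwo} {u c : F4} (h : pj j B = aj j u c) : B = 1 := by
  rw [pj_apply, aj_eq, QuotientGroup.eq, Matrix.SpecialLinearGroup.mem_center_iff] at h
  obtain ⟨r, _, hr⟩ := h
  have e1 : mA j u c = mB j B.1 * Matrix.scalar (Fin 3) r := by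
    rw [hr, ← Aj_val]
    have : Aj j u c = blk j B * ((blk j B)⁻¹ * Aj j u c) := by group
    conv_lhs => rw [this]
    rfl
  have en : ∀ i k, mA j u c i k = mB j B.1 i k * r := by
    intro i k
    rw [e1]
    simp [Matrix.mul_diagonal]
  cases j
  · have e0 : (1 : F4) = 1 * r := en 0 0
    rw [one_mul] at e0
    subst e0
    apply Subtype.ext
    ext a b
    fin_cases a <;> fin_cases b
    · have := en 1 1; simpa [mA, mB, um] using this.symm
    · have := en 1 2; simpa [mA, mB, um] using this.symm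
    · have := en 2 1; simpa [mA, mB, um] using this.symm
    · have := en 2 2; simpa [mA, mB, um] using this.symm
  · have e0 : (1 : F4) = 1 * r := en 2 2
    rw [one_mul] at e0
    subst e0
    apply Subtype.ext
    ext a b
    fin_cases a <;> fin_cases b
    · have := en 0 0; simpa [mA, mB, um] using this.symm
    · have := en 0 1; simpa [mA, mB, um] using this.symm
    · have := en 1 0; simpa [mA, mB, um] using this.symm
    · have := en 1 1; simpa [mA, mB, um] using this.symm

theorem pj_injective (j : Bool) : Function.Injective (pj j) := by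
  rw [injective_iff_map_eq_one]
  intro B h
  apply pj_eq_aj (u := 0) (c := 0)
  rw [h, aj_zero]

theorem P_inf_A (j : Bool) : P j ⊓ A j = ⊥ := by
  rw [eq_bot_iff]
  rintro _ ⟨⟨B, rfl⟩, h⟩
  obtain ⟨u, c, h⟩ := mem_A'.1 h
  rw [pj_eq_aj h, map_one]
  exact Subgroup.one_mem _

theorem P_conj {j : Bool} {p a : L0} (hp : p ∈ P j) (ha : a ∈ A j) : p * a * p⁻¹ ∈ A j := by
  obtain ⟨B, rfl⟩ := hp
  obtain ⟨u, c, rfl⟩ := mem_A'.1 ha
  rw [conj_aj]
  exact mem_A'.2 ⟨_, _, rfl⟩

theorem P_le (j : Bool) : P j ≤ Subgroup.normalizer (A j : Set L0) := by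
  intro p hp
  rw [Subgroup.mem_normalizer_iff]
  intro a
  refine ⟨fun h => P_conj hp h, fun h => ?_⟩
  have := P_conj (Subgroup.inv_mem _ hp) h
  have e1 : p⁻¹ * (p * a * p⁻¹) * p⁻¹⁻¹ = a := by group
  rwa [e1] at this

theorem t_mem_P_false (b : F4) : t 1 2 b ∈ P false := by
  refine ⟨mk2 1 b 0 1 (by rw [mul_zero, mul_one, sub_zero]), ?_⟩
  rw [pj_apply]
  have h : blk false (mk2 1 b 0 1 (by rw [mul_zero, mul_one, sub_zero])) = T 1 2 b := by
    apply Subtype.ext
    show mB false (Matrix.of ![![1, b], ![0, 1]]) = tm 1 2 b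
    ext i k
    fin_cases i <;> fin_cases k <;> simp [mB, tm]
  rw [h]
  rfl

theorem t_mem_P_true (b : F4) : t 0 1 b ∈ P true := by
  refine ⟨mk2 1 b 0 1 (by rw [mul_zero, mul_one, sub_zero]), ?_⟩
  rw [pj_apply]
  have h : blk true (mk2 1 b 0 1 (by rw [mul_zero, mul_one, sub_zero])) = T 0 1 b := by
    apply Subtype.ext
    show mB true (Matrix.of ![![1, b], ![0, 1]]) = tm 0 1 b
    ext i k
    fin_cases i <;> fin_cases k <;> simp [mB, tm]
  rw [h]
  rfl

theorem S0_le (j : Bool) : S0 ≤ A j ⊔ P j := by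
  rintro _ ⟨a, b, c, rfl⟩
  cases j
  · rw [e_split]
    refine Subgroup.mul_mem _ (le_sup_left (α := Subgroup L0) (eA_false a c)) ?_
    rw [e_12]
    exact le_sup_right (α := Subgroup L0) (t_mem_P_false b)
  · have h : e a b c = e 0 b (c + a * b) * e a 0 0 := by
      rw [e_mul]
      have : ∀ a b c : F4, a = 0 + a ∧ b = b + 0 ∧ c = a * b + (c + a * b) + 0 := by decide +kernel
      obtain ⟨h1, h2, h3⟩ := this a b c
      rw [← h3, ← h1, ← h2]
    rw [h]
    refine Subgroup.mul_mem _ (le_sup_left (α := Subgroup L0) (eA_true _ _)) ?_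
    rw [e_01]
    exact le_sup_right (α := Subgroup L0) (t_mem_P_true a)

theorem normalizer_eq (j : Bool) : Subgroup.normalizer (A j : Set L0) = A j ⊔ P j := by
  apply le_antisymm
  · intro g hg
    have h1 : aj j 0 1 ∈ A j := mem_A'.2 ⟨0, 1, rfl⟩
    have h2 : g * aj j 0 1 * g⁻¹ ∈ A j := (Subgroup.mem_normalizer_iff.1 hg _).1 h1
    obtain ⟨u, c, h3⟩ := mem_A'.1 h2
    have hne : ¬ (u = 0 ∧ c = 0) := by
      rintro ⟨rfl, rfl⟩
      rw [aj_zero, mul_inv_eq_iff_eq_mul, one_mul] at h3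
      have h4 : aj j 0 1 = 1 := by
        have := mul_left_cancel (h3.trans (mul_one g).symm)
        exact this
      rw [aj_zero_one, ← e_02] at h4
      have := (e_one h4).2.2
      revert this
      decide
    obtain ⟨B, hB⟩ := exists_conj j hne
    have h5 : (pj j B * g) * t 0 2 1 = t 0 2 1 * (pj j B * g) := by
      rw [← aj_zero_one j, ← mul_inv_eq_iff_eq_mul]
      rw [← h3] at hB
      calc pj j B * g * aj j 0 1 * (pj j B * g)⁻¹
          = pj j B * (g * aj j 0 1 * g⁻¹) * (pj j B)⁻¹ := by group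
        _ = aj j 0 1 := hB
    have h6 := S0_le j (cent_t02' (c := 1) (by decide) h5)
    have h7 : (pj j B)⁻¹ * (pj j B * g) ∈ A j ⊔ P j :=
      Subgroup.mul_mem _ (Subgroup.inv_mem _ (le_sup_right (α := Subgroup L0) ⟨B, rfl⟩)) h6
    rwa [inv_mul_cancel_left] at h7
  · exact sup_le Subgroup.le_normalizer (P_le j)

theorem center_SLTwo : Subgroup.center SLTwo = ⊥ := by
  rw [eq_bot_iff]
  intro x hx
  rw [Matrix.SpecialLinearGroup.mem_center_iff] at hx
  obtain ⟨r, hr, hx⟩ := hx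
  have h1 : ∀ r : F4, r ^ 2 = 1 → r = 1 := by decide +kernel
  have h2 : r = 1 := h1 r (by simpa using hr)
  rw [Subgroup.mem_bot]
  apply Subtype.ext
  rw [← hx, h2]
  simp

/-- `P j ≅ PSL(2,4)` -/
theorem nonempty_equiv (j : Bool) : Nonempty (P j ≃* ProjectiveSpecialLinearGroup (Fin 2) F4) := by
  have e1 : SLTwo ≃* P j := MonoidHom.ofInjective (pj_injective j)
  have e2 : ProjectiveSpecialLinearGroup (Fin 2) F4 ≃* SLTwo :=
    (QuotientGroup.quotientMulEquivOfEq center_SLTwo).trans QuotientGroup.quotientBot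
  exact ⟨e1.symm.trans e2.symm⟩

end Cfsg.Agent.H298.LFour
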