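import Cfsg.Agent.H298.LFour
import Cfsg.Agent.Solvable.Gaschutz
import Cfsg.Agent.Lib.FrattiniPGroup

/-!
# Central extensions of `PSL(3,4)` by groups of exponent two: the preimages of the `A j`
-/

set_option autoImplicit false

namespace Cfsg.Agent.H298.LFourCover

open Matrix
open Cfsg.Agent.SporadicA.FieldFour
open Cfsg.Agent.ONType.Psl
open Cfsg.Agent.ONType.PslCard
open Cfsg.Agent.StdLThreeFour.Base
open Cfsg.Agent.StdLThreeFour.Facts1
open Cfsg.Agent.H298.LFour

/-- complements of a common normal subgroup are isomorphic -/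
theorem compl_equiv {G : Type*} [Group G] (A P R : Subgroup G) (hP : P ⊓ A = ⊥) (hR : R ⊓ A = ⊥)
    (hn : A ⊔ P ≤ Subgroup.normalizer (A : Set G)) (h : A ⊔ P = A ⊔ R) : Nonempty (P ≃* R) := by
  have key2 : ∀ (Q : Subgroup G), A ⊔ Q = A ⊔ P → Q ⊓ A = ⊥ →
      ∃ hA : (A.subgroupOf (A ⊔ P)).Normal,
        Nonempty ((↥(A ⊔ P) ⧸ A.subgroupOf (A ⊔ P)) ≃* Q) := by
    intro Q hQ hQA
    have hA : (A.subgroupOf (A ⊔ P)).Normal := Subgroup.normal_subgroupOf_of_le_normalizer hn
    refine ⟨hA, ?_⟩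
    have hQle : Q ≤ A ⊔ P := hQ ▸ le_sup_right
    have hdisj : Disjoint (Q.subgroupOf (A ⊔ P)) (A.subgroupOf (A ⊔ P)) := by
      rw [disjoint_iff]
      have h1 : (Q ⊓ A).subgroupOf (A ⊔ P) = Q.subgroupOf (A ⊔ P) ⊓ A.subgroupOf (A ⊔ P) :=
        Subgroup.comap_inf _ _ _
      rw [← h1, hQA]
      exact Subgroup.bot_subgroupOf _
    have hsup : Q.subgroupOf (A ⊔ P) ⊔ A.subgroupOf (A ⊔ P) = ⊤ := by
      rw [← Subgroup.subgroupOf_sup hQle le_sup_left, sup_comm Q A, hQ, Subgroup.subgroupOf_self]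
    have hc : (Q.subgroupOf (A ⊔ P)).IsComplement' (A.subgroupOf (A ⊔ P)) := by
      apply Subgroup.isComplement'_of_disjoint_and_mul_eq_univ hdisj
      rw [← Subgroup.mul_normal, hsup]
      rfl
    exact ⟨hc.QuotientMulEquiv.trans (Subgroup.subgroupOfEquivOfLe hQle)⟩
  obtain ⟨_, ⟨e1⟩⟩ := key2 P rfl hP
  obtain ⟨_, ⟨e2⟩⟩ := key2 R h.symm hR
  exact ⟨e1.symm.trans e2⟩

section

variable {X : Type*} [Group X] {π : X →* L0}

theorem sq_const (hs : Function.Surjective π) (hk : π.ker = Subgroup.center X)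
    (hz : ∀ z ∈ Subgroup.center X, z * z = 1) {x y : X} (hx : π x ≠ 1) (hx2 : π x * π x = 1)
    (hy : π y ≠ 1) (hy2 : π y * π y = 1) : x * x = y * y := by
  obtain ⟨l1, h1⟩ := inv_conj hx hx2
  obtain ⟨l2, h2⟩ := inv_conj hy hy2
  obtain ⟨g, hg⟩ := hs (l2⁻¹ * l1)
  have h3 : π (g * x * g⁻¹) = π y := by
    rw [map_mul, map_mul, map_inv, hg]
    have h4 : l1 * π x * l1⁻¹ = l2 * π y * l2⁻¹ := h1.trans h2.symm
    calc l2⁻¹ * l1 * π x * (l2⁻¹ * l1)⁻¹ = l2⁻¹ * (l1 * π x * l1⁻¹) * l2 := by group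
      _ = π y := by rw [h4]; group
  set z := y⁻¹ * (g * x * g⁻¹) with hzdef
  have hzc : z ∈ Subgroup.center X := by
    rw [← hk, MonoidHom.mem_ker, hzdef, map_mul, h3, map_inv, inv_mul_cancel]
  have h5 : g * x * g⁻¹ = y * z := by rw [hzdef]; group
  have h6 : z * y = y * z := (Subgroup.mem_center_iff.1 hzc y).symm
  have h7 : g * x * g⁻¹ * (g * x * g⁻¹) = y * y := by
    rw [h5]
    calc y * z * (y * z) = y * (z * y) * z := by group
      _ = y * y * (z * z) := by rw [h6]; group
      _ = y * y := by rw [hz z hzc, mul_one]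
  have h8 : x * x ∈ Subgroup.center X := by
    rw [← hk, MonoidHom.mem_ker, map_mul, hx2]
  have h9 : g * (x * x) = (x * x) * g := Subgroup.mem_center_iff.1 h8 g
  calc x * x = (x * x) * g * g⁻¹ := by group
    _ = g * (x * x) * g⁻¹ := by rw [h9]
    _ = g * x * g⁻¹ * (g * x * g⁻¹) := by group
    _ = y * y := h7

theorem aj_mul (j : Bool) (u c u' c' : F4) : aj j u c * aj j u' c' = aj j (u + u') (c + c') := by
  cases j
  · show e u 0 c * e u' 0 c' = e (u + u') 0 (c + c')
    rw [e_mul]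
    have : ∀ u' c c' : F4, (0 : F4) + 0 = 0 ∧ u' * 0 + c + c' = c + c' := by decide
    rw [(this u' c c').1, (this u' c c').2]
  · show e 0 u c * e 0 u' c' = e 0 (u + u') (c + c')
    rw [e_mul]
    have : ∀ u c c' : F4, (0 : F4) + 0 = 0 ∧ 0 * u + c + c' = c + c' := by decide
    rw [(this u c c').1, (this u c c').2]

theorem aj_ne_one {j : Bool} {u c : F4} (h : ¬ (u = 0 ∧ c = 0)) : aj j u c ≠ 1 := by
  intro h1
  apply h
  cases j
  · exact ⟨(e_one h1).1, (e_one h1).2.2⟩
  · exact ⟨(e_one h1).2.1, (e_one h1).2.2⟩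

/-- **the preimage of `A j` has exponent two** -/
theorem sq_eq_one (hs : Function.Surjective π) (hk : π.ker = Subgroup.center X)
    (hz : ∀ z ∈ Subgroup.center X, z * z = 1) (j : Bool) {h : X} (hh : h ∈ (A j).comap π) :
    h * h = 1 := by
  obtain ⟨p, hp⟩ := hs (aj j 0 1)
  obtain ⟨q, hq⟩ := hs (aj j 0 ω)
  obtain ⟨r, hr⟩ := hs (aj j 1 0)
  have hpA : p ∈ (A j).comap π := by rw [Subgroup.mem_comap, hp]; exact mem_A'.2 ⟨_, _, rfl⟩
  have hqA : q ∈ (A j).comap π := by rw [Subgroup.mem_comap, hq]; exact mem_A'.2 ⟨_, _, rfl⟩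
  have hrA : r ∈ (A j).comap π := by rw [Subgroup.mem_comap, hr]; exact mem_A'.2 ⟨_, _, rfl⟩
  have hp1 : π p ≠ 1 := by rw [hp]; exact aj_ne_one (by decide)
  have hq1 : π q ≠ 1 := by rw [hq]; exact aj_ne_one (by decide)
  have hr1 : π r ≠ 1 := by rw [hr]; exact aj_ne_one (by decide)
  have hpq1 : π (p * q) ≠ 1 := by rw [map_mul, hp, hq, aj_mul]; exact aj_ne_one (by decide)
  have hpr1 : π (p * r) ≠ 1 := by rw [map_mul, hp, hr, aj_mul]; exact aj_ne_one (by decide)
  have hqr1 : π (q * r) ≠ 1 := by rw [map_mul, hq, hr, aj_mul]; exact aj_ne_one (by decide)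
  have hpqr1 : π (p * (q * r)) ≠ 1 := by
    rw [map_mul, map_mul, hp, hq, hr, aj_mul, aj_mul]; exact aj_ne_one (by decide)
  have hsq : ∀ x ∈ (A j).comap π, π x * π x = 1 := fun x hx => sq_of_mem_A hx
  set c := p * p with hc
  have hcc : c ∈ Subgroup.center X := by
    rw [← hk, MonoidHom.mem_ker, hc, map_mul]
    exact hsq p hpA
  have hc2 : c * c = 1 := hz c hcc
  have hcomm : ∀ x : X, x * c = c * x := fun x => Subgroup.mem_center_iff.1 hcc x
  have hx2 : ∀ x ∈ (A j).comap π, π x ≠ 1 → x * x = c := fun x hx h1 =>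
    sq_const hs hk hz h1 (hsq x hx) hp1 (hsq p hpA)
  have key : ∀ x ∈ (A j).comap π, ∀ y ∈ (A j).comap π, π x ≠ 1 → π y ≠ 1 → π (x * y) ≠ 1 →
      x * y = c * (y * x) := by
    intro x hx y hy h1 h2 h3
    set k := x * y * x⁻¹ * y⁻¹ with hkdef
    have hkc : k ∈ Subgroup.center X := by
      rw [← hk, MonoidHom.mem_ker, hkdef, map_mul, map_mul, map_mul, map_inv, map_inv]
      rw [A_comm hx hy]
      group
    have e1 : x * y = k * (y * x) := by rw [hkdef]; group
    have e2 : x * y * (x * y) = c := hx2 _ (Subgroup.mul_mem _ hx hy) h3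
    have e3 : x * y * (x * y) = k := by
      calc x * y * (x * y) = k * (y * x) * (x * y) := by rw [← e1]
        _ = k * (y * (x * x) * y) := by group
        _ = k * ((y * c) * y) := by rw [hx2 x hx h1]
        _ = k * (c * (y * y)) := by rw [hcomm]; group
        _ = k := by rw [hx2 y hy h2, hc2, mul_one]
    rw [e1, ← e3, e2]
  have hc1 : c = 1 := by
    have e1 := key p hpA q hqA hp1 hq1 hpq1
    have e2 := key p hpA r hrA hp1 hr1 hpr1
    have e3 := key p hpA (q * r) (Subgroup.mul_mem _ hqA hrA) hp1 hqr1 hpqr1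
    have e4 : p * (q * r) = q * r * p := by
      calc p * (q * r) = p * q * r := by group
        _ = c * (q * p) * r := by rw [e1]
        _ = (c * q) * (p * r) := by group
        _ = (q * c) * (c * (r * p)) := by rw [e2, hcomm q]
        _ = q * (c * c) * (r * p) := by group
        _ = q * r * p := by rw [hc2]; group
    have e5 : c * (q * r * p) = 1 * (q * r * p) := by rw [← e3, e4, one_mul]
    exact mul_right_cancel e5
  by_cases h1 : π h = 1
  · apply hz
    rw [← hk]
    exact h1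
  · rw [hx2 h hh h1, hc1]

theorem comm_of_sq {H : Subgroup X} (h : ∀ x ∈ H, x * x = 1) : ∀ x ∈ H, ∀ y ∈ H, x * y = y * x := by
  intro x hx y hy
  have h1 := h _ (H.mul_mem hx hy)
  have h2 := h x hx
  have h3 := h y hy
  calc x * y = x * (x * y * (x * y)) * y := by rw [h1]; group
    _ = (x * x) * (y * x) * (y * y) := by group
    _ = y * x := by rw [h2, h3]; group

/-- **the centre of the preimage of `S0`** -/
theorem mem_comap_Z0 {x : X} (hs : Function.Surjective π) (hx : x ∈ S0.comap π)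
    (hc : ∀ y ∈ S0.comap π, x * y = y * x) : x ∈ Z0.comap π := by
  obtain ⟨a, b, c, h⟩ := hx
  rw [Subgroup.mem_comap, h, mem_Z0_iff]
  obtain ⟨y1, h1⟩ := hs (e 1 0 0)
  obtain ⟨y2, h2⟩ := hs (e 0 1 0)
  have e1 := congrArg π (hc y1 (by rw [Subgroup.mem_comap, h1]; exact e_mem _ _ _))
  have e2 := congrArg π (hc y2 (by rw [Subgroup.mem_comap, h2]; exact e_mem _ _ _))
  rw [map_mul, map_mul, h, h1, comm_iff] at e1
  rw [map_mul, map_mul, h, h2, comm_iff] at e2
  constructor
  · simpa using e2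
  · simpa using e1

/-- **The normalizer of the preimage of `A j` splits.** -/
theorem exists_compl [Finite X] (hs : Function.Surjective π) (hk : π.ker = Subgroup.center X)
    (hz : ∀ z ∈ Subgroup.center X, z * z = 1) (j : Bool) :
    ∃ C : Subgroup X, C ≤ Subgroup.normalizer ((A j).comap π : Set X) ∧ C ⊓ (A j).comap π = ⊥ ∧
      (A j).comap π ⊔ C = Subgroup.normalizer ((A j).comap π : Set X) ∧
      Nonempty (C ≃* ProjectiveSpecialLinearGroup (Fin 2) F4) := by
  have hker : ∀ B : Subgroup L0, π.ker ≤ B.comap π := fun B x hx => by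
    rw [Subgroup.mem_comap, MonoidHom.mem_ker.1 hx]; exact B.one_mem
  set N := Subgroup.normalizer ((A j).comap π : Set X) with hN
  have hN' : (Subgroup.normalizer (A j : Set L0)).comap π = N :=
    Subgroup.comap_normalizer_eq_of_surjective (A j) hs
  have hHN : (A j).comap π ≤ N := Subgroup.le_normalizer
  have hSN : S0.comap π ≤ N := by
    rw [← hN']
    apply Subgroup.comap_mono
    rw [normalizer_eq]
    exact S0_le j
  have hKS : (A (!j)).comap π ≤ S0.comap π := Subgroup.comap_mono (A_le _)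
  have hHS : (A j).comap π ≤ S0.comap π := Subgroup.comap_mono (A_le _)
  -- complement in the Sylow subgroup
  obtain ⟨K0, hK0, hK0i, hK0s⟩ : ∃ K0 : Subgroup X, K0 ≤ (A (!j)).comap π ∧
      K0 ⊓ (A j).comap π = ⊥ ∧ (A j).comap π ⊔ K0 = S0.comap π := by
    have h1 : ∀ x ∈ (A (!j)).comap π, x * x = 1 := fun x hx => sq_eq_one hs hk hz _ hx
    have h2 := comm_of_sq h1
    obtain ⟨K, hK⟩ := Cfsg.Agent.Lib.FrattiniPGroup.exists_isCompl_of_elementary (p := 2)
      (V := ↥((A (!j)).comap π)) (fun a b => Subtype.ext (h2 a.1 a.2 b.1 b.2))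
      (fun a => Subtype.ext (by rw [Subgroup.coe_pow, pow_two]; exact h1 a.1 a.2))
      (((A j).comap π).subgroupOf ((A (!j)).comap π))
    refine ⟨K.map (Subgroup.subtype _), Subgroup.map_subtype_le K, ?_, ?_⟩
    · rw [eq_bot_iff]
      rintro _ ⟨⟨x, hx, rfl⟩, hx2⟩
      have h3 : x ∈ ((A j).comap π).subgroupOf ((A (!j)).comap π) ⊓ K := ⟨hx2, hx⟩
      rw [disjoint_iff.1 hK.disjoint, Subgroup.mem_bot] at h3
      rw [h3]
      exact Subgroup.one_mem _
    · have h3 : (A (!j)).comap π ≤ (A j).comap π ⊔ K.map (Subgroup.subtype _) := by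
        intro x hx
        have h4 : (⟨x, hx⟩ : ↥((A (!j)).comap π)) ∈
            ((A j).comap π).subgroupOf ((A (!j)).comap π) ⊔ K := by
          rw [codisjoint_iff.1 hK.codisjoint]; trivial
        have h5 := Subgroup.mem_map_of_mem (Subgroup.subtype _) h4
        rw [Subgroup.map_sup] at h5
        have h6 : (((A j).comap π).subgroupOf ((A (!j)).comap π)).map (Subgroup.subtype _) ≤
            (A j).comap π := by
          rw [Subgroup.subgroupOf_map_subtype]
          exact inf_le_left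
        exact (sup_le_sup h6 (le_refl _) :
          (((A j).comap π).subgroupOf ((A (!j)).comap π)).map (Subgroup.subtype _) ⊔
            K.map (Subgroup.subtype _) ≤ (A j).comap π ⊔ K.map (Subgroup.subtype _)) h5
      apply le_antisymm
      · exact sup_le hHS ((Subgroup.map_subtype_le K).trans hKS)
      · have h6 : (A j).comap π ⊔ (A (!j)).comap π = S0.comap π := by
          have h7 : A j ⊔ A (!j) = S0 := by
            cases j
            · exact A_sup
            · rw [sup_comm]; exact A_sup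
          rw [← h7]
          exact (Subgroup.comap_sup_eq_of_le_range π
            (by rw [MonoidHom.range_eq_top.2 hs]; exact le_top)
            (by rw [MonoidHom.range_eq_top.2 hs]; exact le_top))
        rw [← h6]
        exact sup_le le_sup_left h3
  -- Gaschütz
  have hn : (((A j).comap π).subgroupOf N).Normal := Subgroup.normal_in_normalizer
  have hc : IsMulCommutative (((A j).comap π).subgroupOf N) := by
    refine ⟨⟨?_⟩⟩
    rintro ⟨⟨a, ha⟩, ha'⟩ ⟨⟨b, hb⟩, hb'⟩
    apply Subtype.ext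
    apply Subtype.ext
    exact comm_of_sq (fun x hx => sq_eq_one hs hk hz j hx) a ha' b hb'
  have hidx : ¬ 2 ∣ ((S0.comap π).subgroupOf N).index := by
    intro h
    have h1 : (S0.comap π).relIndex N * N.index = (S0.comap π).index :=
      Subgroup.relIndex_mul_index hSN
    have h2 : (S0.comap π).index = S0.index := Subgroup.index_comap_of_surjective _ hs
    have h3 : 2 ∣ (S0.comap π).relIndex N := h
    have h4 : 2 ∣ S0.index := by rw [← h2, ← h1]; exact Dvd.dvd.mul_right h3 _
    exact index_odd h4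
  have hbij : Function.Bijective fun k : ↥(((A j).comap π).subgroupOf N) =>
      k ^ ((S0.comap π).subgroupOf N).index := by
    have h1 : (fun k : ↥(((A j).comap π).subgroupOf N) =>
        k ^ ((S0.comap π).subgroupOf N).index) = id := by
      funext k
      have hk2 : k ^ 2 = 1 := by
        apply Subtype.ext
        apply Subtype.ext
        simp only [Subgroup.coe_pow, OneMemClass.coe_one]
        rw [pow_two]
        exact sq_eq_one hs hk hz j k.2
      obtain ⟨m, hm⟩ : ∃ m, ((S0.comap π).subgroupOf N).index = 2 * m + 1 :=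
        ⟨((S0.comap π).subgroupOf N).index / 2, by omega⟩
      rw [hm, pow_add, pow_mul, hk2, one_pow, one_mul, pow_one]
      rfl
    rw [h1]
    exact Function.bijective_id
  obtain ⟨C, hC⟩ := Cfsg.Agent.Solvable.Gaschutz.exists_complement
    (((A j).comap π).subgroupOf N) ((S0.comap π).subgroupOf N) hbij (K0.subgroupOf N)
    (by
      have h1 : (K0 ⊓ (A j).comap π).subgroupOf N =
          K0.subgroupOf N ⊓ ((A j).comap π).subgroupOf N := Subgroup.comap_inf _ _ _
      rw [← h1, hK0i]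
      exact Subgroup.bot_subgroupOf _)
    (by
      rw [← Subgroup.subgroupOf_sup hHN ((hK0.trans hKS).trans hSN), hK0s])
  have hCi : C.map N.subtype ⊓ (A j).comap π = ⊥ := by
    rw [eq_bot_iff]
    rintro _ ⟨⟨x, hx, rfl⟩, hx2⟩
    have h3 : x ∈ ((A j).comap π).subgroupOf N ⊓ C := ⟨hx2, hx⟩
    rw [disjoint_iff.1 hC.disjoint, Subgroup.mem_bot] at h3
    rw [h3]
    exact Subgroup.one_mem _
  have hCs : (A j).comap π ⊔ C.map N.subtype = N := by
    have h1 := hC.sup_eq_top
    have h2 := congrArg (Subgroup.map N.subtype) h1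
    rw [Subgroup.map_sup, Subgroup.subgroupOf_map_subtype, inf_eq_left.2 hHN] at h2
    rw [h2, ← MonoidHom.range_eq_map, Subgroup.range_subtype]
  refine ⟨C.map N.subtype, Subgroup.map_subtype_le C, hCi, hCs, ?_⟩
  -- the isomorphism type
  set D := C.map N.subtype with hD
  have hinj : Function.Injective (π.comp D.subtype) := by
    rw [injective_iff_map_eq_one]
    rintro ⟨x, hx⟩ h1
    have h2 : x ∈ D ⊓ (A j).comap π := by
      refine ⟨hx, ?_⟩
      have : π x = 1 := h1
      refine Subgroup.mem_comap.2 ?_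
      rw [this]
      exact Subgroup.one_mem _
    rw [hCi, Subgroup.mem_bot] at h2
    exact Subtype.ext h2
  have e1 : D ≃* (π.comp D.subtype).range := MonoidHom.ofInjective hinj
  have hrange : (π.comp D.subtype).range = D.map π := by
    rw [MonoidHom.range_comp, Subgroup.range_subtype]
  have hmap : A j ⊔ D.map π = A j ⊔ P j := by
    rw [← normalizer_eq]
    have h1 : (N.map π) = Subgroup.normalizer (A j : Set L0) := by
      rw [← hN', Subgroup.map_comap_eq_self_of_surjective hs]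
    rw [← h1, ← hCs, Subgroup.map_sup, Subgroup.map_comap_eq_self_of_surjective hs]
  have hDA : D.map π ⊓ A j = ⊥ := by
    rw [eq_bot_iff]
    rintro _ ⟨⟨x, hx, rfl⟩, hx2⟩
    have h2 : x ∈ D ⊓ (A j).comap π := ⟨hx, hx2⟩
    rw [hCi, Subgroup.mem_bot] at h2
    rw [h2, map_one]
    exact Subgroup.one_mem _
  obtain ⟨e2⟩ := compl_equiv (A j) (P j) (D.map π) (P_inf_A j) hDA
    (by rw [← normalizer_eq]) hmap.symm
  obtain ⟨e3⟩ := nonempty_equiv j
  exact ⟨(e1.trans (MulEquiv.subgroupCongr hrange)).trans (e2.symm.trans e3)⟩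

end

end Cfsg.Agent.H298.LFourCover
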